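import Cfsg.Agent.H310.MonC.FiveA

/-!
# The elements of order 5 of the Monster, II (helper310, for S3852)
-/

set_option autoImplicit false
set_option linter.unusedSectionVars false

namespace Cfsg.Agent.H310.MonC

open Matrix Subgroup
open Cfsg.Agent.H777.M5 Cfsg.Agent.H411.M5 Cfsg.Agent.H497.Stein

/-! ### in `G` -/

section mx

variable {G : Type} [Group G] (P : MX G)

/-- the homomorphism `PG → G` -/
abbrev ph : PG →* G := PDat.hom P.toPData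

/-- an element of `C(x) ∩ C(z)` acting on `W` by a matrix of order 2: its 5-th power is an involution -/
theorem orderOf_pow5 {h : G} (hx : h * P.x = P.x * h) (hz : h * P.z = P.z * h) {M : Matrix (Fin 6) (Fin 6) (ZMod 5)}
    (hM : ∀ v, h * P.w v * h⁻¹ = P.w (M *ᵥ v)) (hM2 : M * M = 1) (hM1 : ∃ v, M *ᵥ v ≠ v) : orderOf (h ^ 5) = 2 := by
  have hpow : ∀ (n : ℕ) (v : V6), h ^ n * P.w v = P.w ((M ^ n) *ᵥ v) * h ^ n := fun n v => conj_pow_of hM n v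
  have h2 : h ^ 2 ∈ zpowers P.x := by
    refine P.ker _ ?_ ?_ ?_
    · exact ((show Commute h P.x from hx).pow_left 2).eq
    · exact ((show Commute h P.z from hz).pow_left 2).eq
    · intro v
      rw [hpow 2 v, pow_two, hM2, one_mulVec, mul_inv_cancel_right]
  have h10 : (h ^ 5) ^ 2 = 1 := by
    obtain ⟨s, hs⟩ := mem_zpowers_iff.1 h2
    rw [← pow_mul, mul_comm, pow_mul, ← hs, ← zpow_natCast, ← _root_.zpow_mul, mul_comm, _root_.zpow_mul, zpow_natCast,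
      P.x_five, _root_.one_zpow]
  refine orderOf_eq_prime h10 ?_
  intro h1
  obtain ⟨v, hv⟩ := hM1
  apply hv
  have h3 := hpow 5 v
  rw [h1, one_mul, mul_one] at h3
  have h4 : M ^ 5 = M := by
    have h6 : M ^ 5 = (M * M) * (M * M) * M := by
      simp only [pow_succ, pow_zero, one_mul, mul_assoc]
    rw [h6, hM2, one_mul, one_mul]
  rw [h4] at h3
  have h5 : ph P ⟨v, 0, 0, 0⟩ = ph P ⟨M *ᵥ v, 0, 0, 0⟩ := by
    rw [PDat.hom_apply, PDat.hom_apply]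
    simp only [ZMod.val_zero, pow_zero, mul_one]
    exact h3
  exact (congrArg PG.v (PDat.hom_injective _ h5)).symm

/-- conjugation by an element `h` of `C(x)` acting on `W` by `M`, `h a h⁻¹ = a`, `h b h⁻¹ = b` or `b⁻¹` -/
theorem conj_ph {h : G} (hx : h * P.x = P.x * h) {M : Matrix (Fin 6) (Fin 6) (ZMod 5)}
    (hM : ∀ v, h * P.w v * h⁻¹ = P.w (M *ᵥ v)) (ha : h * P.a = P.a * h) {e : ZMod 5 → ZMod 5}
    (hb : ∀ j : ZMod 5, h * P.b ^ j.val * h⁻¹ = P.b ^ (e j).val) (g : PG) :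
    h * ph P g * h⁻¹ = ph P ⟨M *ᵥ g.v, g.c, g.i, e g.j⟩ := by
  rw [PDat.hom_apply, PDat.hom_apply, ← hM, ← hb]
  have h1 : h * P.x ^ g.c.val = P.x ^ g.c.val * h := ((show Commute h P.x from hx).pow_right _).eq
  have h2 : h * P.a ^ g.i.val = P.a ^ g.i.val * h := ((show Commute h P.a from ha).pow_right _).eq
  calc h * (P.w g.v * P.x ^ g.c.val * (P.a ^ g.i.val * P.b ^ g.j.val)) * h⁻¹
      = (h * P.w g.v * h⁻¹) * (h * P.x ^ g.c.val * h⁻¹) * ((h * P.a ^ g.i.val * h⁻¹) * (h * P.b ^ g.j.val * h⁻¹)) := by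
        group
    _ = _ := by rw [h1, h2, mul_inv_cancel_right, mul_inv_cancel_right]

theorem neg_mulVec' (v : V6) : (-1 : Matrix (Fin 6) (Fin 6) (ZMod 5)) *ᵥ v = -v := by
  rw [neg_mulVec, one_mulVec]

theorem conj_z (g : PG) : P.z * ph P g * P.z⁻¹ = ph P ⟨-g.v, g.c, g.i, g.j⟩ := by
  have h := conj_ph P (h := P.z) (M := -1) P.zx (fun v => by rw [neg_mulVec', P.z_w]) P.za (e := id) (fun j => by
    have h1 : P.z * P.b ^ j.val = P.b ^ j.val * P.z := ((show Commute P.z P.b from P.zb).pow_right _).eq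
    rw [h1, mul_inv_cancel_right]; rfl) g
  rw [h, neg_mulVec']
  rfl

theorem pow_neg_val {y : G} (hy : y ^ 5 = 1) (j : ZMod 5) : (y⁻¹) ^ j.val = y ^ (-j).val := by
  rw [inv_pow, inv_eq_iff_mul_eq_one, ← pow_val_add' hy, add_neg_cancel, ZMod.val_zero, pow_zero]

theorem conj_t (g : PG) : P.t * ph P g * P.t⁻¹ = ph P ⟨tM *ᵥ g.v, g.c, g.i, -g.j⟩ :=
  conj_ph P P.tx P.t_w P.ta (e := fun j => -j) (fun j => by
    rw [← conj_pow, P.tb, pow_neg_val P.b_five]) g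

theorem conj_tz (g : PG) : (P.t * P.z) * ph P g * (P.t * P.z)⁻¹ = ph P ⟨-(tM *ᵥ g.v), g.c, g.i, -g.j⟩ := by
  have h : (P.t * P.z) * ph P g * (P.t * P.z)⁻¹ = P.t * (P.z * ph P g * P.z⁻¹) * P.t⁻¹ := by group
  rw [h, conj_z, conj_t, mulVec_neg]

theorem order_z : orderOf (P.z ^ 5) = 2 :=
  orderOf_pow5 P P.zx rfl (M := -1) (fun v => by rw [neg_mulVec', P.z_w]) (by rw [neg_mul_neg, one_mul])
    ⟨vv 0 1 1 0, by rw [neg_mulVec']; decide⟩

theorem order_t : orderOf (P.t ^ 5) = 2 :=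
  orderOf_pow5 P P.tx P.tz P.t_w (by decide +kernel) ⟨vv 0 1 1 0, by decide⟩

theorem order_tz : orderOf ((P.t * P.z) ^ 5) = 2 :=
  orderOf_pow5 P (M := -tM) ((show Commute P.t P.x from P.tx).mul_left P.zx).eq
    ((show Commute P.t P.z from P.tz).mul_left rfl).eq (fun v => by
      have h : (P.t * P.z) * P.w v * (P.t * P.z)⁻¹ = P.t * (P.z * P.w v * P.z⁻¹) * P.t⁻¹ := by group
      rw [h, P.z_w, P.t_w, mulVec_neg, neg_mulVec]) (by decide +kernel) ⟨vv 1 0 1 0, by decide⟩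

/-- an element commuting with `h` -/
theorem good_of_comm {h y : G} (ho : orderOf (h ^ 5) = 2) (hy : h * y * h⁻¹ = y) : Good y := by
  left
  refine ⟨h ^ 5, ho, ?_⟩
  have h1 : Commute h y := mul_inv_eq_iff_eq_mul.1 hy
  exact (h1.pow_left 5).eq

/-- conjugation in `PG` -/
theorem good_of_pg {g k g' : PG} (hk : k * g * k⁻¹ = g') (h : Good (ph P g')) : Good (ph P g) := by
  refine Good.of_conj (g := ph P k) ?_
  rw [← map_inv, ← map_mul, ← map_mul, hk]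
  exact h

/-- the elements of `W a` -/
theorem good_a (g : PG) (hi : g.i = 1) (hj : g.j = 0) : Good (ph P g) := by
  have key : ∀ (p q c : ZMod 5), (p = 0 ∨ q = 0) → Good (ph P ⟨vv 4 5 p q, c, 1, 0⟩) := by
    rintro p q c (rfl | rfl)
    · refine good_of_comm (order_tz P) ?_
      rw [conj_tz]
      simp only [tM_vv', neg_neg, neg_zero]
    · refine good_of_comm (order_t P) ?_
      rw [conj_t]
      simp only [tM_vv, neg_zero]
  -- first step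
  obtain ⟨h1, h2, h3⟩ := conj_wv (UA *ᵥ g.v) g
  rw [hi, hj, ua_eq] at h1
  refine good_of_pg P (k := wv (UA *ᵥ g.v)) rfl ?_
  obtain ⟨g', hg'⟩ : ∃ g', g' = wv (UA *ᵥ g.v) * g * (wv (UA *ᵥ g.v))⁻¹ := ⟨_, rfl⟩
  rw [← hg'] at h1 h2 h3 ⊢
  have e1 : g' = ⟨vv 4 5 (g.v 4) (g.v 5), g'.c, 1, 0⟩ := PG.ext h1 rfl (h2.trans hi) (h3.trans hj)
  rw [e1]
  by_cases h5 : g.v 5 = 0
  · rw [h5]
    exact key _ _ _ (Or.inr rfl)
  -- second step: conjugation by `b ^ k`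
  have hf : Fact (Nat.Prime 5) := ⟨Nat.prime_five⟩
  obtain ⟨k, hk⟩ : ∃ k : ZMod 5, g.v 4 + k * g.v 5 = 0 :=
    ⟨-g.v 4 * (g.v 5)⁻¹, by rw [mul_assoc, inv_mul_cancel₀ h5, mul_one, add_neg_cancel]⟩
  obtain ⟨p, hp⟩ : ∃ p, p = g.v 4 := ⟨_, rfl⟩
  obtain ⟨q, hq⟩ : ∃ q, q = g.v 5 := ⟨_, rfl⟩
  rw [← hp, ← hq] at hk ⊢
  refine good_of_pg P (k := ⟨0, 0, 0, k⟩) rfl ?_
  obtain ⟨y, hy⟩ : ∃ y : PG, y = ⟨0, 0, 0, k⟩ * (⟨vv 4 5 p q, g'.c, 1, 0⟩ : PG) * (⟨0, 0, 0, k⟩ : PG)⁻¹ := ⟨_, rfl⟩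
  rw [← hy]
  have yv : y.v = act 0 k (vv 4 5 p q) := by rw [hy]; simp [act_zero]
  have yi : y.i = 1 := by rw [hy]; simp
  have yj : y.j = 0 := by rw [hy]; simp
  obtain ⟨a4, a5⟩ := act_vv k p q
  rw [hk] at a4
  obtain ⟨h1', h2', h3'⟩ := conj_wv (UA *ᵥ y.v) y
  rw [yi, yj, ua_eq] at h1'
  refine good_of_pg P (k := wv (UA *ᵥ y.v)) rfl ?_
  obtain ⟨y', hy'⟩ : ∃ y', y' = wv (UA *ᵥ y.v) * y * (wv (UA *ᵥ y.v))⁻¹ := ⟨_, rfl⟩
  rw [← hy'] at h1' h2' h3' ⊢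
  rw [yv, a4, a5] at h1'
  have e2 : y' = ⟨vv 4 5 0 q, y'.c, 1, 0⟩ := PG.ext h1' rfl (h2'.trans yi) (h3'.trans yj)
  rw [e2]
  exact key _ _ _ (Or.inl rfl)

/-- the elements of `W b` -/
theorem good_b (g : PG) (hi : g.i = 0) (hj : g.j = 1) (ho : orderOf (ph P g) = 5) : Good (ph P g) := by
  obtain ⟨h1, h2, h3⟩ := conj_wv (UB *ᵥ g.v) g
  rw [hi, hj, ub_eq] at h1
  refine good_of_pg P (k := wv (UB *ᵥ g.v)) rfl ?_
  obtain ⟨g', hg'⟩ : ∃ g', g' = wv (UB *ᵥ g.v) * g * (wv (UB *ᵥ g.v))⁻¹ := ⟨_, rfl⟩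
  have ho' : orderOf (ph P g') = 5 := by
    rw [← ho, hg', map_mul, map_mul, map_inv]
    exact MulEquiv.orderOf_eq (MulAut.conj _) _
  rw [← hg'] at h1 h2 h3 ⊢
  have e1 : g' = ⟨vv 2 5 (g.v 2) (g.v 5), g'.c, 0, 1⟩ := PG.ext h1 rfl (h2.trans hi) (h3.trans hj)
  obtain ⟨p, hp⟩ : ∃ p, p = g.v 2 := ⟨_, rfl⟩
  obtain ⟨q, hq⟩ : ∃ q, q = g.v 5 := ⟨_, rfl⟩
  obtain ⟨c, hc⟩ : ∃ c, c = g'.c := ⟨_, rfl⟩
  rw [← hp, ← hq, ← hc] at e1
  rw [e1] at ho' ⊢
  by_cases h0 : p = 0 ∧ q = 0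
  · obtain ⟨rfl, rfl⟩ := h0
    refine good_of_comm (order_z P) ?_
    rw [conj_z]
    have : vv 2 5 0 0 = 0 := by
      funext k; simp [vv]
    simp only [this, neg_zero]
  · have h0' : p ≠ 0 ∨ q ≠ 0 := by
      by_contra hcon
      push Not at hcon
      exact h0 hcon
    obtain ⟨y, hy⟩ := conj_inv c h0'
    refine Good.of_inv ho' (g := ph P y * P.t) ?_
    have e2 : ph P y * P.t * ph P ⟨vv 2 5 p q, c, 0, 1⟩ * (ph P y * P.t)⁻¹ =
        ph P y * (P.t * ph P ⟨vv 2 5 p q, c, 0, 1⟩ * P.t⁻¹) * (ph P y)⁻¹ := by group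
    rw [e2, conj_t]
    simp only [tM_vb]
    rw [← map_inv, ← map_mul, ← map_mul, hy, map_inv]

/-- the elements of `W` -/
theorem good_w (g : PG) (hi : g.i = 0) (hj : g.j = 0) (ho : orderOf (ph P g) = 5) : Good (ph P g) := by
  have e1 : g = ⟨g.v, g.c, 0, 0⟩ := PG.ext rfl rfl hi hj
  by_cases hv : g.v = 0
  · refine good_of_comm (order_z P) ?_
    rw [conj_z, hv, neg_zero, ← hv]
  · obtain ⟨y, hy⟩ := conj_inv_w hv g.c
    refine Good.of_inv ho (g := ph P y * P.z) ?_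
    have e2 : ph P y * P.z * ph P g * (ph P y * P.z)⁻¹ =
        ph P y * (P.z * ph P g * P.z⁻¹) * (ph P y)⁻¹ := by group
    rw [e2, conj_z, hi, hj, ← map_inv, ← map_mul, ← map_mul, hy, map_inv, ← e1]

/-! ### the element `r` -/

/-- the matrices of the elements of `C(x)` -/
def Mt (h : G) (M : Matrix (Fin 6) (Fin 6) (ZMod 5)) : Prop :=
  h * P.x = P.x * h ∧ h * P.z = P.z * h ∧ ∀ v, h * P.w v * h⁻¹ = P.w (M *ᵥ v)

theorem Mt.mul {h k : G} {M N : Matrix (Fin 6) (Fin 6) (ZMod 5)} (hh : Mt P h M) (hk : Mt P k N) : Mt P (h * k) (M * N) :=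
  ⟨((show Commute h P.x from hh.1).mul_left hk.1).eq, ((show Commute h P.z from hh.2.1).mul_left hk.2.1).eq, fun v => by
    have e : (h * k) * P.w v * (h * k)⁻¹ = h * (k * P.w v * k⁻¹) * h⁻¹ := by group
    rw [e, hk.2.2, hh.2.2, mulVec_mulVec]⟩

theorem Mt.one : Mt P (1 : G) 1 := ⟨by simp, by simp, fun v => by rw [one_mulVec]; group⟩

theorem Mt.pow {h : G} {M : Matrix (Fin 6) (Fin 6) (ZMod 5)} (hh : Mt P h M) (n : ℕ) : Mt P (h ^ n) (M ^ n) := by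
  induction n with
  | zero => rw [pow_zero, pow_zero]; exact Mt.one P
  | succ n ih => rw [pow_succ, pow_succ]; exact ih.mul P hh

/-- two elements with the same matrix -/
theorem Mt.eq {h k : G} {M : Matrix (Fin 6) (Fin 6) (ZMod 5)} (hh : Mt P h M) (hk : Mt P k M) :
    ∃ c : ZMod 5, h = k * P.x ^ c.val := by
  have h1 : k⁻¹ * h ∈ zpowers P.x := by
    refine P.ker _ ?_ ?_ ?_
    · exact ((show Commute k P.x from hk.1).inv_left.mul_left hh.1).eq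
    · exact ((show Commute k P.z from hk.2.1).inv_left.mul_left hh.2.1).eq
    · intro v
      have e : k⁻¹ * h * P.w v * (k⁻¹ * h)⁻¹ = k⁻¹ * (h * P.w v * h⁻¹) * k := by group
      rw [e, hh.2.2, ← hk.2.2]
      group
  have hf : IsOfFinOrder P.x := isOfFinOrder_iff_pow_eq_one.2 ⟨5, by norm_num, P.x_five⟩
  obtain ⟨n, hn⟩ := hf.mem_powers_iff_mem_zpowers.2 h1
  have hn : P.x ^ n = k⁻¹ * h := hn
  refine ⟨(n : ZMod 5), ?_⟩
  rw [ZMod.val_natCast]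
  have h3 : P.x ^ (n % 5) = P.x ^ n := by
    conv_rhs => rw [← Nat.mod_add_div n 5, pow_add, pow_mul, P.x_five, one_pow, mul_one]
  rw [h3, hn]
  group

theorem mt_a : Mt P P.a aM := ⟨P.x_a.symm, P.za.symm, P.a_w⟩
theorem mt_b : Mt P P.b bM := ⟨P.x_b.symm, P.zb.symm, P.b_w⟩
theorem mt_b' : Mt P P.b' bpM := ⟨P.b'x, P.zb'.symm, P.b'_w⟩
theorem mt_j : Mt P P.j jM := ⟨P.jx, P.zj.symm, P.j_w⟩

theorem mt_ab (i j : ZMod 5) : Mt P (P.a ^ i.val * P.b ^ j.val) (mat i j) :=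
  ((mt_a P).pow P _).mul P ((mt_b P).pow P _)

/-- an element normalising the Sylow subgroup -/
theorem exists_r : ∃ r : G, ∀ g : PG, ∃ (v : V6) (c : ZMod 5), r * ph P g * r⁻¹ = ph P ⟨v, c, 3 * g.i + g.j, 3 * g.i + 3 * g.j⟩ := by
  obtain ⟨r, hr⟩ : ∃ r : G, Mt P r rM :=
    ⟨_, ((((((((((mt_j P).mul P (mt_b' P)).mul P (mt_a P)).mul P (mt_b' P)).mul P (mt_b P)).mul P (mt_a P)).mul P
      (mt_b' P)).mul P (mt_b P)).mul P (mt_a P)).mul P (mt_b' P))⟩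
  refine ⟨r, fun g => ?_⟩
  have h1 : Mt P (r * (P.a ^ g.i.val * P.b ^ g.j.val)) (rM * mat g.i g.j) := hr.mul P (mt_ab P _ _)
  have h2 : Mt P ((P.a ^ (3 * g.i + g.j).val * P.b ^ (3 * g.i + 3 * g.j).val) * r)
      (mat (3 * g.i + g.j) (3 * g.i + 3 * g.j) * rM) := (mt_ab P _ _).mul P hr
  have h3 : rM * mat g.i g.j = mat (3 * g.i + g.j) (3 * g.i + 3 * g.j) * rM := by
    generalize g.i = i
    generalize g.j = j
    revert i j
    decide +kernel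
  rw [h3] at h1
  obtain ⟨c, hc⟩ := h1.eq P h2
  refine ⟨rM *ᵥ g.v, g.c + c, ?_⟩
  rw [PDat.hom_apply, PDat.hom_apply]
  have e1 : r * P.x ^ g.c.val = P.x ^ g.c.val * r := ((show Commute r P.x from hr.1).pow_right _).eq
  obtain ⟨A, hA⟩ : ∃ A, A = P.a ^ g.i.val * P.b ^ g.j.val := ⟨_, rfl⟩
  obtain ⟨B, hB⟩ : ∃ B, B = P.a ^ (3 * g.i + g.j).val * P.b ^ (3 * g.i + 3 * g.j).val := ⟨_, rfl⟩
  rw [← hA, ← hB] at hc ⊢
  have e2 : r * A * r⁻¹ = B * P.x ^ c.val := by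
    rw [hc]
    have e3 : r * P.x ^ c.val = P.x ^ c.val * r := ((show Commute r P.x from hr.1).pow_right _).eq
    calc B * r * P.x ^ c.val * r⁻¹ = B * (r * P.x ^ c.val) * r⁻¹ := by group
      _ = _ := by rw [e3]; group
  have e4 : B * P.x ^ c.val = P.x ^ c.val * B := by
    rw [hB]
    exact (((show Commute P.a P.x from P.x_a.symm).pow_pow _ _).mul_left
      ((show Commute P.b P.x from P.x_b.symm).pow_pow _ _)).eq
  calc r * (P.w g.v * P.x ^ g.c.val * A) * r⁻¹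
      = (r * P.w g.v * r⁻¹) * (r * P.x ^ g.c.val * r⁻¹) * (r * A * r⁻¹) := by group
    _ = P.w (rM *ᵥ g.v) * P.x ^ g.c.val * (P.x ^ c.val * B) := by
        rw [hr.2.2, e1, mul_inv_cancel_right, e2, e4]
    _ = P.w (rM *ᵥ g.v) * (P.x ^ g.c.val * P.x ^ c.val) * B := by group
    _ = _ := by rw [← pow_val_add' P.x_five]

/-- the orbits of the points -/
theorem orbits : ∀ i j : ZMod 5, (i ≠ 0 ∨ j ≠ 0) → ∃ (n : Fin 3) (m : Fin 5), (m.val).Coprime 5 ∧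
    (((fun p : ZMod 5 × ZMod 5 => (3 * p.1 + p.2, 3 * p.1 + 3 * p.2))^[n.val] ((m.val : ZMod 5) * i, (m.val : ZMod 5) * j) = (1, 0)) ∨
     ((fun p : ZMod 5 × ZMod 5 => (3 * p.1 + p.2, 3 * p.1 + 3 * p.2))^[n.val] ((m.val : ZMod 5) * i, (m.val : ZMod 5) * j) = (0, 1))) := by
  decide +kernel

theorem pow_ij (g : PG) (m : ℕ) : (g ^ m).i = m * g.i ∧ (g ^ m).j = m * g.j := by
  induction m with
  | zero => simp
  | succ m ih =>
    rw [pow_succ, PG.mul_i, PG.mul_j, ih.1, ih.2]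
    push_cast
    constructor <;> ring

/-- **The elements of the Sylow subgroup.** -/
theorem good_ph (g : PG) (ho : orderOf (ph P g) = 5) : Good (ph P g) := by
  by_cases h0 : g.i = 0 ∧ g.j = 0
  · exact good_w P g h0.1 h0.2 ho
  have h0' : g.i ≠ 0 ∨ g.j ≠ 0 := by
    by_contra hcon
    push Not at hcon
    exact h0 hcon
  obtain ⟨n, m, hm, hor⟩ := orbits g.i g.j h0'
  have hp5 : ph P g ^ 5 = 1 := by rw [← ho, pow_orderOf_eq_one]
  refine Good.of_pow hp5 hm ?_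
  have ho2 : orderOf (ph P g ^ m.val) = 5 := by
    rw [Nat.Coprime.orderOf_pow (by rw [ho]; exact hm.symm), ho]
  rw [← map_pow] at ho2 ⊢
  have key : ∀ (n : ℕ) (y : PG), orderOf (ph P y) = 5 →
      ((fun p : ZMod 5 × ZMod 5 => (3 * p.1 + p.2, 3 * p.1 + 3 * p.2))^[n] (y.i, y.j) = (1, 0) ∨
       (fun p : ZMod 5 × ZMod 5 => (3 * p.1 + p.2, 3 * p.1 + 3 * p.2))^[n] (y.i, y.j) = (0, 1)) → Good (ph P y) := by
    intro n
    induction n with
    | zero =>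
      intro y hy h
      rcases h with h | h
      · exact good_a P y (congrArg Prod.fst h) (congrArg Prod.snd h)
      · exact good_b P y (congrArg Prod.fst h) (congrArg Prod.snd h) hy
    | succ n ih =>
      intro y hy h
      obtain ⟨r, hr⟩ := exists_r P
      obtain ⟨v, c, hvc⟩ := hr y
      refine Good.of_conj (g := r) ?_
      have hy' : orderOf (r * ph P y * r⁻¹) = 5 := by
        rw [← hy]
        exact MulEquiv.orderOf_eq (MulAut.conj r) _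
      rw [hvc] at hy' ⊢
      refine ih _ hy' ?_
      rw [Function.iterate_succ_apply] at h
      exact h
  refine key n.val _ ho2 ?_
  rw [(pow_ij g m.val).1, (pow_ij g m.val).2]
  exact hor

include P in
/-- **All elements of order 5.** -/
theorem good_five [Finite G] {y : G} (hy : orderOf y = 5) : Good y := by
  have hf : Fact (Nat.Prime 5) := ⟨Nat.prime_five⟩
  have hR : IsPGroup 5 (ph P).range := IsPGroup.of_card (PDat.card_range _)
  have hidx : ¬ 5 ∣ (ph P).range.index := by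
    intro h5
    apply P.not_dvd
    rw [← (ph P).range.card_mul_index, PDat.card_range, pow_succ]
    exact mul_dvd_mul_left _ h5
  have hyp : IsPGroup 5 ↥(zpowers y) := by
    rw [IsPGroup.iff_card]
    exact ⟨1, by rw [Nat.card_zpowers, hy, pow_one]⟩
  obtain ⟨T, hT⟩ := hyp.exists_le_sylow
  obtain ⟨g, hg⟩ := MulAction.exists_smul_eq G T (hR.toSylow hidx)
  have h1 : g * y * g⁻¹ ∈ (ph P).range := by
    have h2 : g * y * g⁻¹ ∈ ((g • T : Sylow 5 G) : Subgroup G) := by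
      rw [Sylow.coe_subgroup_smul]
      exact Subgroup.smul_mem_pointwise_smul y (MulAut.conj g) _ (hT (mem_zpowers y))
    rw [hg, hR.toSylow_coe hidx] at h2
    exact h2
  obtain ⟨x, hx⟩ := h1
  refine Good.of_conj (g := g) ?_
  rw [← hx]
  refine good_ph P x ?_
  have h3 : orderOf (g * y * g⁻¹) = 5 := by
    rw [← hy]
    exact MulEquiv.orderOf_eq (MulAut.conj g) y
  rw [hx, h3]

end mx

end Cfsg.Agent.H310.MonC
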